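import Cfsg.Agent.H101.RealOdd
import Cfsg.Agent.H661.SporTh
import Cfsg.Agent.MonsterX.ThOneClass

/-!
# `RealOdd` for the Thompson group (helper126, task 1618 of helper972)
-/

set_option autoImplicit false

namespace Cfsg.Agent.H126.RO

open Subgroup Cfsg.Agent.H101.RO Cfsg.Agent.H661.Spor Cfsg.Agent.H722.RealP

universe u

/-- **Row of the Thompson group**: an element of order 13. -/
theorem ro_Th {G : Type u} [Group G] [Finite G] (h : Cfsg.Spor.IsoTh G) : Cfsg.Agent.H101.RO.RealOdd G := by
  obtain ⟨e⟩ := h
  obtain ⟨x, hx, hxi⟩ := (Th.hasReal.map_equiv e.symm).isConj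
  obtain ⟨y, hy⟩ := isConj_iff.1 hxi
  refine RealOdd.of_not_dvd (p := 13) (k := 1) (by norm_num) (by norm_num) le_rfl (by rw [hx, pow_one]) hy
    fun t ht hd => ?_
  have ht' : orderOf (e t) = 2 := by rw [MulEquiv.orderOf_eq, ht]
  have h1 := Cfsg.Agent.MonsterX.ThOneClass.card_centralizer ht'
  have h2 : Nat.card ↥(centralizer ({t} : Set G)) = Nat.card ↥(centralizer ({e t} : Set Cfsg.Spor.Th)) := by
    refine Nat.card_congr
      { toFun := fun x => ⟨e x, mem_centralizer_singleton_iff.2 (by
          rw [← map_mul, ← map_mul, mem_centralizer_singleton_iff.1 x.2])⟩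
        invFun := fun x => ⟨e.symm x, mem_centralizer_singleton_iff.2 (by
          apply e.injective
          rw [map_mul, map_mul, e.apply_symm_apply, mem_centralizer_singleton_iff.1 x.2])⟩
        left_inv := fun x => Subtype.ext (e.symm_apply_apply _)
        right_inv := fun x => Subtype.ext (e.apply_symm_apply _) }
  rw [h2, h1] at hd
  revert hd
  norm_num

end Cfsg.Agent.H126.RO
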